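import Mathlib

/-!
# Rank of matrices: field extensions and split factorizations (helper79)
-/

set_option autoImplicit false

namespace Cfsg.Agent.Lib.Helper79

/-- The rank of a square matrix over a field does not change under a field extension. -/
theorem rank_map_field {K L : Type*} [Field K] [Field L] {m : Type*} [Fintype m] [DecidableEq m]
    (f : K →+* L) (A : Matrix m m K) : (A.map f).rank = A.rank := by
  classical
  obtain ⟨L1, L2, D, h⟩ := Matrix.Pivot.exists_list_transvec_mul_diagonal_mul_list_transvec A
  set P := (L1.map Matrix.TransvectionStruct.toMatrix).prod with hP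
  set Q := (L2.map Matrix.TransvectionStruct.toMatrix).prod with hQ
  have hPd : P.det = 1 := Matrix.TransvectionStruct.det_toMatrix_prod L1
  have hQd : Q.det = 1 := Matrix.TransvectionStruct.det_toMatrix_prod L2
  have h1 : A.rank = (Matrix.diagonal D).rank := by
    rw [h, Matrix.rank_mul_eq_left_of_isUnit_det Q _ (by rw [hQd]; exact isUnit_one),
      Matrix.rank_mul_eq_right_of_isUnit_det P _ (by rw [hPd]; exact isUnit_one)]
  have hPd' : (P.map f).det = 1 := by
    have := RingHom.map_det f P
    rw [hPd, map_one] at this
    exact this.symm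
  have hQd' : (Q.map f).det = 1 := by
    have := RingHom.map_det f Q
    rw [hQd, map_one] at this
    exact this.symm
  have h2 : (A.map f).rank = (Matrix.diagonal (fun i => f (D i))).rank := by
    rw [h, Matrix.map_mul, Matrix.map_mul,
      Matrix.rank_mul_eq_left_of_isUnit_det (Q.map f) _ (by rw [hQd']; exact isUnit_one),
      Matrix.rank_mul_eq_right_of_isUnit_det (P.map f) _ (by rw [hPd']; exact isUnit_one),
      Matrix.diagonal_map (map_zero f)]
  rw [h1, h2, Matrix.rank_diagonal, Matrix.rank_diagonal]
  exact Fintype.card_congr (Equiv.subtypeEquivRight fun i => by simp)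

/-- If `Y * A = 1` then `A * Y` has rank the size of the identity matrix. -/
theorem rank_mul_of_mul_eq_one {F : Type*} [Field F] {m n : Type*} [Fintype m] [Fintype n]
    [DecidableEq n] (A : Matrix m n F) (Y : Matrix n m F) (h : Y * A = 1) :
    (A * Y).rank = Fintype.card n := by
  apply le_antisymm
  · exact (Matrix.rank_mul_le_left A Y).trans (Matrix.rank_le_card_width A)
  · have h1 : (1 : Matrix n n F) = Y * (A * Y) * A := by
      rw [← Matrix.mul_assoc, h, Matrix.one_mul, h]
    calc Fintype.card n = (1 : Matrix n n F).rank := Matrix.rank_one.symm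
      _ = (Y * (A * Y) * A).rank := by rw [← h1]
      _ ≤ (Y * (A * Y)).rank := Matrix.rank_mul_le_left _ _
      _ ≤ (A * Y).rank := Matrix.rank_mul_le_right _ _

end Cfsg.Agent.Lib.Helper79
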