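import Cfsg.Agent.Lib.Helper78.RegInner2
import Cfsg.Agent.Lib.Helper26.Virtual

/-!
# Twisting a character of central defect zero by a linear character of a central `p`-subgroup
(helper79)

`H` a finite group, `Z` a central `p`-subgroup, `θ ∈ Irr(H)` with `Z ≤ ker θ` and of `p`-defect zero
as a character of `H / Z`.  For a "linear character" `lam` of `Z` the function
`θ_lam (z y) = lam z * θ y` (`y` `p`-regular), `0` elsewhere, is an irreducible character.
-/

set_option autoImplicit false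

namespace Cfsg.Agent.Lib.Helper79

open Cfsg Cfsg.Agent.Lib.Helper78
open scoped ComplexConjugate

variable {H : Type*} [Group H] [Fintype H]

omit [Fintype H] in
open Classical in
theorem single_isClassFunction_of_center {z : H} (hz : z ∈ Subgroup.center H) (c : ℂ) :
    IsClassFunction H (Pi.single z c) := by
  intro g h
  have hiff : h * g * h⁻¹ = z ↔ g = z := by
    constructor
    · intro e
      have h1 : g = h⁻¹ * z * h := by rw [← e]; group
      rw [h1, Subgroup.mem_center_iff.1 hz h⁻¹]; group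
    · rintro rfl
      rw [Subgroup.mem_center_iff.1 hz h]; group
  by_cases hg : g = z
  · rw [hiff.2 hg, hg]
  · rw [Pi.single_apply, Pi.single_apply, if_neg hg, if_neg (fun e => hg (hiff.1 e))]

open Classical in
theorem omega_single (χ : H → ℂ) (w : H) : omega χ (Pi.single w 1) = χ w / χ 1 := by
  unfold omega
  rw [Finset.sum_eq_single w]
  · simp
  · intro b _ hb
    rw [Pi.single_apply, if_neg hb, zero_mul]
  · intro h; exact absurd (Finset.mem_univ _) h

/-- Values at products with central elements. -/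
theorem irr_mul_center {χ : H → ℂ} (hχ : IsIrrCharacter H χ) {z : H}
    (hz : z ∈ Subgroup.center H) (w : H) : χ (w * z) * χ 1 = χ w * χ z := by
  classical
  have h1 := omega_conv hχ (Pi.single w 1) (single_isClassFunction_of_center hz 1)
  have h2 : conv (Pi.single w (1 : ℂ)) (Pi.single z (1 : ℂ)) = Pi.single (w * z) 1 := by
    funext g
    unfold conv
    rw [Finset.sum_eq_single w]
    · rw [Pi.single_eq_same, one_mul, Pi.single_apply, Pi.single_apply]
      congr 1
      rw [eq_iff_iff]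
      constructor
      · intro h; rw [← h]; group
      · intro h; rw [h]; group
    · intro b _ hb
      rw [Pi.single_apply, if_neg hb, zero_mul]
    · intro h; exact absurd (Finset.mem_univ _) h
  rw [h2, omega_single, omega_single, omega_single] at h1
  have h3 : χ 1 ≠ 0 := irr_one_ne_zero ⟨χ, hχ⟩
  field_simp at h1
  linear_combination h1

theorem irr_center_mul {χ : H → ℂ} (hχ : IsIrrCharacter H χ) {z : H}
    (hz : z ∈ Subgroup.center H) (w : H) : χ (z * w) * χ 1 = χ z * χ w := by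
  rw [← Subgroup.mem_center_iff.1 hz w, irr_mul_center hχ hz, mul_comm]

open Classical in
/-- The sum of a multiplicative function over a finite subgroup is `0` or the order. -/
theorem sum_mulFun_eq (Z : Subgroup H) (f : H → ℂ)
    (hmul : ∀ a ∈ Z, ∀ b ∈ Z, f (a * b) = f a * f b) :
    ∑ z : H, (if z ∈ Z then f z else 0) = 0 ∨
      ∑ z : H, (if z ∈ Z then f z else 0) = (Nat.card Z : ℂ) := by
  by_cases h : ∀ z ∈ Z, f z = 1
  · right
    have : ∀ z : H, (if z ∈ Z then f z else 0) = if z ∈ Z then (1 : ℂ) else 0 := by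
      intro z
      split_ifs with hz
      · exact h z hz
      · rfl
    simp_rw [this]
    rw [Finset.sum_boole, Nat.card_eq_fintype_card, Fintype.card_subtype]
  · left
    push Not at h
    obtain ⟨z0, hz0, hne⟩ := h
    have h1 : f z0 * ∑ z : H, (if z ∈ Z then f z else 0) = ∑ z : H, (if z ∈ Z then f z else 0) := by
      rw [Finset.mul_sum, ← Equiv.sum_comp (Equiv.mulLeft z0) (fun z : H => if z ∈ Z then f z else 0)]
      refine Finset.sum_congr rfl fun z _ => ?_
      change _ = if z0 * z ∈ Z then f (z0 * z) else 0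
      by_cases hz : z ∈ Z
      · rw [if_pos hz, if_pos (Z.mul_mem hz0 hz), hmul z0 hz0 z hz]
      · rw [if_neg hz, if_neg (fun h => hz ((Subgroup.mul_mem_cancel_left Z hz0).1 h)), mul_zero]
    have h2 : (f z0 - 1) * ∑ z : H, (if z ∈ Z then f z else 0) = 0 := by
      rw [sub_mul, h1, one_mul, sub_self]
    rcases mul_eq_zero.1 h2 with h3 | h3
    · exact absurd (sub_eq_zero.1 h3) hne
    · exact h3

open Classical in
/-- The `lam`-component of a generalized character with respect to a central subgroup. -/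
theorem isGeneralizedCharacter_centralComp (Z : Subgroup H) (hZc : Z ≤ Subgroup.center H)
    (lam : H → ℂ) (hmul : ∀ a ∈ Z, ∀ b ∈ Z, lam (a * b) = lam a * lam b) {Φ : H → ℂ}
    (hΦ : IsGeneralizedCharacter H Φ) :
    IsGeneralizedCharacter H (fun c => (Nat.card Z : ℂ)⁻¹ *
      ∑ z : H, if z ∈ Z then conj (lam z) * Φ (z * c) else 0) := by
  obtain ⟨hcl, hint⟩ := Cfsg.Agent.Lib.Helper3.isGeneralizedCharacter_iff.1 hΦ
  rw [Cfsg.Agent.Lib.Helper3.isGeneralizedCharacter_iff]
  refine ⟨?_, ?_⟩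
  · intro g h
    simp only
    congr 1
    refine Finset.sum_congr rfl fun z _ => ?_
    split_ifs with hz
    · have e : z * (h * g * h⁻¹) = h * (z * g) * h⁻¹ := by
        rw [← mul_assoc, ← mul_assoc, ← mul_assoc, Subgroup.mem_center_iff.1 (hZc hz) h]
      rw [e, hcl]
    · rfl
  · intro ψ
    obtain ⟨n, hn⟩ := hint ψ
    have hψ1 : (ψ : H → ℂ) 1 ≠ 0 := irr_one_ne_zero ψ
    have key : classInner (fun c => (Nat.card Z : ℂ)⁻¹ *
        ∑ z : H, if z ∈ Z then conj (lam z) * Φ (z * c) else 0) (ψ : H → ℂ)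
        = ((Nat.card Z : ℂ)⁻¹ * ∑ z : H, if z ∈ Z then
            conj (lam z) * ((ψ : H → ℂ) z / (ψ : H → ℂ) 1) else 0) * classInner Φ (ψ : H → ℂ) := by
      unfold classInner
      have h1 : ∀ z ∈ Z, ∑ c : H, Φ (z * c) * conj ((ψ : H → ℂ) c)
          = ((ψ : H → ℂ) z / (ψ : H → ℂ) 1) * ∑ c : H, Φ c * conj ((ψ : H → ℂ) c) := by
        intro z hz
        rw [← Equiv.sum_comp (Equiv.mulLeft z) (fun c => Φ c * conj ((ψ : H → ℂ) c)),
          Finset.mul_sum]
        refine Finset.sum_congr rfl fun c _ => ?_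
        simp only [Equiv.coe_mulLeft]
        have h2 := irr_center_mul ψ.2 (hZc hz) c
        have h3 : (ψ : H → ℂ) (z * c) = (ψ : H → ℂ) z * (ψ : H → ℂ) c / (ψ : H → ℂ) 1 := by
          field_simp; exact h2
        have h4 := irr_center_mul ψ.2 (hZc (Z.inv_mem hz)) z
        rw [inv_mul_cancel, irr_inv] at h4
        rw [h3, map_div₀, map_mul, irr_conj_one]
        field_simp
        have h5 : conj ((ψ : H → ℂ) z) * (ψ : H → ℂ) z = (ψ : H → ℂ) 1 ^ 2 := by
          rw [← h4]; ring
        linear_combination (- Φ (z * c) * conj ((ψ : H → ℂ) c)) * h5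
      calc (Nat.card H : ℂ)⁻¹ * ∑ g : H, ((Nat.card Z : ℂ)⁻¹ *
            ∑ z : H, if z ∈ Z then conj (lam z) * Φ (z * g) else 0) * conj ((ψ : H → ℂ) g)
          = (Nat.card H : ℂ)⁻¹ * ((Nat.card Z : ℂ)⁻¹ * ∑ z : H, ∑ g : H,
              (if z ∈ Z then conj (lam z) * Φ (z * g) else 0) * conj ((ψ : H → ℂ) g)) := by
            congr 1
            rw [Finset.sum_comm, Finset.mul_sum]
            refine Finset.sum_congr rfl fun g _ => ?_
            rw [mul_assoc, Finset.sum_mul]
        _ = (Nat.card H : ℂ)⁻¹ * ((Nat.card Z : ℂ)⁻¹ * ∑ z : H,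
              (if z ∈ Z then conj (lam z) * ((ψ : H → ℂ) z / (ψ : H → ℂ) 1) else 0) *
                ∑ c : H, Φ c * conj ((ψ : H → ℂ) c)) := by
            congr 2
            refine Finset.sum_congr rfl fun z _ => ?_
            split_ifs with hz
            · rw [mul_assoc, ← h1 z hz, Finset.mul_sum]
              refine Finset.sum_congr rfl fun g _ => ?_
              ring
            · simp
        _ = _ := by
            rw [← Finset.sum_mul]; ring
    rw [key, hn]
    have hf : ∀ a ∈ Z, ∀ b ∈ Z, conj (lam (a * b)) * ((ψ : H → ℂ) (a * b) / (ψ : H → ℂ) 1)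
        = (conj (lam a) * ((ψ : H → ℂ) a / (ψ : H → ℂ) 1)) *
          (conj (lam b) * ((ψ : H → ℂ) b / (ψ : H → ℂ) 1)) := by
      intro a ha b hb
      have h2 := irr_center_mul ψ.2 (hZc ha) b
      rw [hmul a ha b hb, map_mul]
      field_simp
      linear_combination (conj (lam a) * conj (lam b)) * h2
    have hZ0 : (Nat.card Z : ℂ) ≠ 0 := by exact_mod_cast Nat.card_pos.ne'
    rcases sum_mulFun_eq Z (fun z => conj (lam z) * ((ψ : H → ℂ) z / (ψ : H → ℂ) 1)) hf with h | h
    · exact ⟨0, by rw [h]; simp⟩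
    · exact ⟨n, by rw [h, inv_mul_cancel₀ hZ0, one_mul]⟩

omit [Fintype H] in
/-- At most one translate of `c` by an element of a central `p`-subgroup is `p`-regular. -/
theorem regular_translate_unique [Finite H] {p : ℕ} (hp : p.Prime) {Z : Subgroup H}
    (hZc : Z ≤ Subgroup.center H) (hZp : IsPGroup p Z) {c z z' : H} (hz : z ∈ Z) (hz' : z' ∈ Z)
    (h : ¬ p ∣ orderOf (z * c)) (h' : ¬ p ∣ orderOf (z' * c)) : z = z' := by
  have hu : z' * z⁻¹ ∈ Z := Z.mul_mem hz' (Z.inv_mem hz)
  obtain ⟨k, hk⟩ := hZp ⟨z' * z⁻¹, hu⟩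
  have hk' : (z' * z⁻¹) ^ p ^ k = 1 := by
    have := congrArg Subtype.val hk
    simpa using this
  obtain ⟨j, -, hj⟩ := (Nat.dvd_prime_pow hp).1 (orderOf_dvd_of_pow_eq_one hk')
  have hcomm : Commute (z' * z⁻¹) (z * c) := (Subgroup.mem_center_iff.1 (hZc hu) (z * c)).symm
  have hcop : (orderOf (z' * z⁻¹)).Coprime (orderOf (z * c)) := by
    rw [hj]
    exact Nat.Coprime.pow_left _ ((Nat.Prime.coprime_iff_not_dvd hp).2 h)
  have h1 := hcomm.orderOf_mul_eq_mul_orderOf_of_coprime hcop
  have e : z' * z⁻¹ * (z * c) = z' * c := by group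
  rw [e, hj] at h1
  rcases Nat.eq_zero_or_pos j with rfl | hj0
  · rw [pow_zero, orderOf_eq_one_iff] at hj
    exact (mul_inv_eq_one.1 hj).symm
  · exfalso
    apply h'
    rw [h1]
    exact Dvd.dvd.mul_right (dvd_pow_self p hj0.ne') _

open Classical in
/-- `s(c) = ∑ conj (lam z)` over the `z ∈ Z` with `z c` `p`-regular (there is at most one). -/
noncomputable def twistFactor (p : ℕ) (Z : Subgroup H) (lam : H → ℂ) (c : H) : ℂ :=
  ∑ z : H, if z ∈ Z ∧ ¬ p ∣ orderOf (z * c) then conj (lam z) else 0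

/-- The twisted function `θ_lam`. -/
noncomputable def twist (p : ℕ) (Z : Subgroup H) (lam θ : H → ℂ) : H → ℂ :=
  fun c => θ c * twistFactor p Z lam c

theorem twistFactor_eq {p : ℕ} (hp : p.Prime) {Z : Subgroup H}
    (hZc : Z ≤ Subgroup.center H) (hZp : IsPGroup p Z) (lam : H → ℂ) {c z : H} (hz : z ∈ Z)
    (h : ¬ p ∣ orderOf (z * c)) : twistFactor p Z lam c = conj (lam z) := by
  classical
  unfold twistFactor
  rw [Finset.sum_eq_single z]
  · rw [if_pos ⟨hz, h⟩]
  · intro b _ hb
    rw [if_neg]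
    rintro ⟨hbZ, hbr⟩
    exact hb (regular_translate_unique hp hZc hZp hbZ hz hbr h)
  · intro h; exact absurd (Finset.mem_univ _) h

theorem twistFactor_eq_zero {p : ℕ} {Z : Subgroup H} (lam : H → ℂ) {c : H}
    (h : ∀ z ∈ Z, p ∣ orderOf (z * c)) : twistFactor p Z lam c = 0 := by
  classical
  unfold twistFactor
  apply Finset.sum_eq_zero
  intro z _
  rw [if_neg]
  rintro ⟨hz, hr⟩
  exact hr (h z hz)

/-- `|s(c)|^2` is `0` or `1`. -/
theorem twistFactor_mul_conj {p : ℕ} (hp : p.Prime) {Z : Subgroup H}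
    (hZc : Z ≤ Subgroup.center H) (hZp : IsPGroup p Z) (lam : H → ℂ)
    (hnorm : ∀ a ∈ Z, lam a * conj (lam a) = 1) (c : H) :
    twistFactor p Z lam c * conj (twistFactor p Z lam c) = 0 ∨
      twistFactor p Z lam c * conj (twistFactor p Z lam c) = 1 := by
  by_cases h : ∀ z ∈ Z, p ∣ orderOf (z * c)
  · left; rw [twistFactor_eq_zero lam h, zero_mul]
  · right
    push Not at h
    obtain ⟨z, hz, hr⟩ := h
    rw [twistFactor_eq hp hZc hZp lam hz hr, Complex.conj_conj, mul_comm]
    exact hnorm z hz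

theorem twistFactor_of_regular {p : ℕ} (hp : p.Prime) {Z : Subgroup H}
    (hZc : Z ≤ Subgroup.center H) (hZp : IsPGroup p Z) (lam : H → ℂ) (h1 : lam 1 = 1) {c : H}
    (h : ¬ p ∣ orderOf c) : twistFactor p Z lam c = 1 := by
  rw [twistFactor_eq hp hZc hZp lam Z.one_mem (by rwa [one_mul]), h1, map_one]

/-- Translation by `Z`. -/
theorem twistFactor_mul {p : ℕ} {Z : Subgroup H} (lam : H → ℂ)
    (hmul : ∀ a ∈ Z, ∀ b ∈ Z, lam (a * b) = lam a * lam b)
    (hnorm : ∀ a ∈ Z, lam a * conj (lam a) = 1) {z0 : H} (hz0 : z0 ∈ Z) (c : H) :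
    twistFactor p Z lam (z0 * c) = lam z0 * twistFactor p Z lam c := by
  classical
  unfold twistFactor
  rw [Finset.mul_sum, ← Equiv.sum_comp (Equiv.mulRight z0)
    (fun z => lam z0 * if z ∈ Z ∧ ¬ p ∣ orderOf (z * c) then conj (lam z) else 0)]
  refine Finset.sum_congr rfl fun z _ => ?_
  change _ = lam z0 * if z * z0 ∈ Z ∧ ¬ p ∣ orderOf (z * z0 * c) then conj (lam (z * z0)) else 0
  rw [mul_assoc z z0 c]
  by_cases hz : z ∈ Z
  · have hzz : z * z0 ∈ Z := Z.mul_mem hz hz0
    by_cases hr : p ∣ orderOf (z * (z0 * c))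
    · rw [if_neg (fun h => h.2 hr), if_neg (fun h => h.2 hr), mul_zero]
    · rw [if_pos ⟨hz, hr⟩, if_pos ⟨hzz, hr⟩, hmul z hz z0 hz0, map_mul]
      linear_combination (- conj (lam z)) * hnorm z0 hz0
  · have hzz : z * z0 ∉ Z := fun h => hz ((Subgroup.mul_mem_cancel_right Z hz0).1 h)
    rw [if_neg (fun h => hz h.1), if_neg (fun h => hzz h.1), mul_zero]

theorem irr_center_mul_of_ker (θ : IrrCharacter H) {z : H} (hz : z ∈ Subgroup.center H)
    (hθz : (θ : H → ℂ) z = (θ : H → ℂ) 1) (c : H) : (θ : H → ℂ) (z * c) = (θ : H → ℂ) c := by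
  have h := irr_center_mul θ.2 hz c
  rw [hθz, mul_comm] at h
  exact mul_left_cancel₀ (irr_one_ne_zero θ) h

theorem isGeneralizedCharacter_twist {p : ℕ} (hp : p.Prime) (hBr : BrauerChar H) {Z : Subgroup H}
    (hZc : Z ≤ Subgroup.center H) (hZp : IsPGroup p Z) (θ : IrrCharacter H)
    (hθZ : ∀ z ∈ Z, (θ : H → ℂ) z = (θ : H → ℂ) 1)
    (hdeg : (charDegree (θ : H → ℂ)).factorization p + (Nat.card Z).factorization p
      = (Nat.card H).factorization p)
    (lam : H → ℂ) (hmul : ∀ a ∈ Z, ∀ b ∈ Z, lam (a * b) = lam a * lam b) :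
    IsGeneralizedCharacter H (twist p Z lam (θ : H → ℂ)) := by
  classical
  have : Fact p.Prime := ⟨hp⟩
  have hΦ := isGeneralizedCharacter_tilde_div hBr hp θ
  have hcard : p ^ ((Nat.card H).factorization p - (charDegree (θ : H → ℂ)).factorization p)
      = Nat.card Z := by
    obtain ⟨k, hk⟩ := IsPGroup.iff_card.1 hZp
    have : (Nat.card Z).factorization p = k := by
      rw [hk, hp.factorization_pow]; simp
    rw [← hdeg, Nat.add_sub_cancel_left, this, hk]
  rw [hcard] at hΦ
  have hcomp := isGeneralizedCharacter_centralComp Z hZc lam hmul hΦ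
  have hZ0 : (Nat.card Z : ℂ) ≠ 0 := by exact_mod_cast Nat.card_pos.ne'
  convert hcomp using 1
  funext c
  unfold twist twistFactor
  rw [Finset.mul_sum, Finset.mul_sum]
  refine Finset.sum_congr rfl fun z _ => ?_
  by_cases hz : z ∈ Z
  · by_cases hr : p ∣ orderOf (z * c)
    · rw [if_neg (fun h => h.2 hr), if_pos hz, if_pos hr]; simp
    · rw [if_pos ⟨hz, hr⟩, if_pos hz, if_neg hr, irr_center_mul_of_ker θ (hZc hz) (hθZ z hz)]
      field_simp
  · rw [if_neg (fun h => hz h.1), if_neg hz]; simp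

theorem isIrrCharacter_twist {p : ℕ} (hp : p.Prime) (hBr : BrauerChar H) {Z : Subgroup H}
    (hZc : Z ≤ Subgroup.center H) (hZp : IsPGroup p Z) (θ : IrrCharacter H)
    (hθZ : ∀ z ∈ Z, (θ : H → ℂ) z = (θ : H → ℂ) 1)
    (hdeg : (charDegree (θ : H → ℂ)).factorization p + (Nat.card Z).factorization p
      = (Nat.card H).factorization p)
    (lam : H → ℂ) (h1 : lam 1 = 1) (hmul : ∀ a ∈ Z, ∀ b ∈ Z, lam (a * b) = lam a * lam b)
    (hnorm : ∀ a ∈ Z, lam a * conj (lam a) = 1) :
    IsIrrCharacter H (twist p Z lam (θ : H → ℂ)) := by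
  classical
  have hgen := isGeneralizedCharacter_twist hp hBr hZc hZp θ hθZ hdeg lam hmul
  obtain ⟨n, hn⟩ := Cfsg.Agent.Lib.Helper26.gen_norm_nat hgen
  have hone : twist p Z lam (θ : H → ℂ) 1 = (θ : H → ℂ) 1 := by
    unfold twist
    rw [twistFactor_of_regular hp hZc hZp lam h1 (by simp [hp.one_lt.ne']), mul_one]
  have hH0 : (0 : ℝ) < (Nat.card H : ℝ) := by exact_mod_cast Nat.card_pos
  -- the norm as a real number
  have hnormsq : ∀ a : H → ℂ, classInner a a
      = (((Nat.card H : ℝ)⁻¹ * ∑ c : H, Complex.normSq (a c) : ℝ) : ℂ) := by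
    intro a
    unfold classInner
    push_cast
    congr 1
    refine Finset.sum_congr rfl fun c _ => ?_
    rw [Complex.mul_conj]
  have hθ1 : classInner (θ : H → ℂ) (θ : H → ℂ) = 1 :=
    Cfsg.Agent.Lib.Helper3.classInner_irr_self θ.2
  rw [hnormsq] at hn hθ1
  have hn' : (Nat.card H : ℝ)⁻¹ * ∑ c : H, Complex.normSq (twist p Z lam (θ : H → ℂ) c) = n := by
    exact_mod_cast hn
  have hθ1' : (Nat.card H : ℝ)⁻¹ * ∑ c : H, Complex.normSq ((θ : H → ℂ) c) = 1 := by
    exact_mod_cast hθ1
  have hle : ∀ c : H, Complex.normSq (twist p Z lam (θ : H → ℂ) c)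
      ≤ Complex.normSq ((θ : H → ℂ) c) := by
    intro c
    unfold twist
    rw [Complex.normSq_mul]
    have h2 : Complex.normSq (twistFactor p Z lam c) ≤ 1 := by
      have h3 : ((Complex.normSq (twistFactor p Z lam c) : ℝ) : ℂ)
          = twistFactor p Z lam c * conj (twistFactor p Z lam c) := (Complex.mul_conj _).symm
      rcases twistFactor_mul_conj hp hZc hZp lam hnorm c with h | h
      · rw [h] at h3
        have : Complex.normSq (twistFactor p Z lam c) = 0 := by exact_mod_cast h3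
        rw [this]; exact zero_le_one
      · rw [h] at h3
        have : Complex.normSq (twistFactor p Z lam c) = 1 := by exact_mod_cast h3
        rw [this]
    calc Complex.normSq ((θ : H → ℂ) c) * Complex.normSq (twistFactor p Z lam c)
        ≤ Complex.normSq ((θ : H → ℂ) c) * 1 :=
          mul_le_mul_of_nonneg_left h2 (Complex.normSq_nonneg _)
      _ = _ := mul_one _
  have hn_le : (n : ℝ) ≤ 1 := by
    rw [← hn', ← hθ1']
    exact mul_le_mul_of_nonneg_left (Finset.sum_le_sum fun c _ => hle c) (inv_pos.2 hH0).le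
  have hn_pos : (0 : ℝ) < n := by
    rw [← hn']
    apply mul_pos (inv_pos.2 hH0)
    apply Finset.sum_pos' (fun c _ => Complex.normSq_nonneg _)
    refine ⟨1, Finset.mem_univ _, ?_⟩
    rw [hone]
    exact Complex.normSq_pos.2 (irr_one_ne_zero θ)
  have hn1 : n = 1 := by
    have h3 : n ≤ 1 := by exact_mod_cast hn_le
    have h4 : 0 < n := by exact_mod_cast hn_pos
    omega
  have hnorm1 : classInner (twist p Z lam (θ : H → ℂ)) (twist p Z lam (θ : H → ℂ)) = 1 := by
    rw [hnormsq, hn', hn1]; simp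
  rcases Cfsg.Agent.Lib.Helper26.gen_norm_one hgen hnorm1 with h | h
  · exact h
  · exfalso
    have h5 := irr_one_eq ⟨_, h⟩
    have h6 := irr_one_eq θ
    simp only [Pi.neg_apply] at h5
    rw [hone, h6] at h5
    have h7 : (0 : ℝ) < (charDegree (θ : H → ℂ) : ℝ) := by exact_mod_cast irr_charDegree_pos θ
    have h8 : -((charDegree (θ : H → ℂ) : ℝ)) = (charDegree (-twist p Z lam (θ : H → ℂ)) : ℝ) := by
      exact_mod_cast h5
    have h9 : (0 : ℝ) ≤ (charDegree (-twist p Z lam (θ : H → ℂ)) : ℝ) := Nat.cast_nonneg _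
    linarith

end Cfsg.Agent.Lib.Helper79
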