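import Cfsg.Agent.Lib.Helper78.DefectZero
import Cfsg.Agent.Lib.Helper80.Core

/-!
# A real element with centralizer of odd order forces an irreducible character of even degree
-/

set_option autoImplicit false

namespace Cfsg.Agent.Lib.Helper79

open Cfsg
open scoped ComplexConjugate
open Cfsg.Agent.Lib.Helper78

/-- Modulo a prime ideal over `2`, the square of a sum is the sum of the squares. -/
theorem memLocalIdeal_sq_sum_sub {M : Ideal AlgInt} (hM : IsPModular 2 M) {ι : Type*}
    (s : Finset ι) (f : ι → ℂ) (hf : ∀ i ∈ s, MemLocalRing M (f i)) :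
    MemLocalIdeal M ((∑ i ∈ s, f i) ^ 2 - ∑ i ∈ s, f i ^ 2) := by
  classical
  have hMp := pmod_isPrime hM
  induction s using Finset.induction_on with
  | empty => simpa using memLocalIdeal_zero hMp
  | insert a s ha ih =>
    rw [Finset.sum_insert ha, Finset.sum_insert ha]
    have h1 := ih fun i hi => hf i (Finset.mem_insert_of_mem hi)
    have h2 : MemLocalRing M (f a * ∑ i ∈ s, f i) :=
      MemLocalRing.mul hMp (hf a (Finset.mem_insert_self a s))
        (MemLocalRing.sum hMp _ _ fun i hi => hf i (Finset.mem_insert_of_mem hi))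
    have h3 : MemLocalIdeal M (((2 : ℕ) : ℂ) * (f a * ∑ i ∈ s, f i)) :=
      MemLocalIdeal.mul_right hMp (memLocalIdeal_p hM) h2
    have e : (f a + ∑ i ∈ s, f i) ^ 2 - (f a ^ 2 + ∑ i ∈ s, f i ^ 2)
        = ((∑ i ∈ s, f i) ^ 2 - ∑ i ∈ s, f i ^ 2) + ((2 : ℕ) : ℂ) * (f a * ∑ i ∈ s, f i) := by
      push_cast; ring
    rw [e]
    exact MemLocalIdeal.add hMp h1 h3

/-- If `u ≠ 1` is conjugate to its inverse and has a centralizer of odd order, then some irreducible
character has even degree. -/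
theorem exists_even_charDegree_of_real {G : Type*} [Group G] [Finite G] (u : G) (hu : u ≠ 1)
    (hreal : IsConj u u⁻¹) (hodd : ¬ 2 ∣ Nat.card (Subgroup.centralizer ({u} : Set G))) :
    ∃ χ : IrrCharacter G, Even (charDegree (χ : G → ℂ)) := by
  classical
  have := Fintype.ofFinite G
  by_contra hcon
  push Not at hcon
  obtain ⟨M, hM⟩ := exists_isPModular 2 Nat.prime_two
  have hMp := pmod_isPrime hM
  apply hodd
  rw [← memLocalIdeal_natCast_iff hM]
  have hR : ∀ χ ∈ (Finset.univ : Finset (IrrCharacter G)), MemLocalRing M ((χ : G → ℂ) u) :=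
    fun χ _ => memLocalRing_irr hMp χ u
  have h1 := Cfsg.Agent.Lib.Helper80.col_orth u u
  rw [if_pos (IsConj.refl u)] at h1
  have hconj : ∀ χ : IrrCharacter G, conj ((χ : G → ℂ) u) = (χ : G → ℂ) u := by
    intro χ
    rw [← irr_inv]
    exact ((isClassFunction_iff_isConj.1 (irr_isClassFunction χ)) _ _ hreal).symm
  have h2 : ∑ χ : IrrCharacter G, ((χ : G → ℂ) u) ^ 2
      = (Nat.card (Subgroup.centralizer ({u} : Set G)) : ℂ) := by
    rw [← h1]
    refine Finset.sum_congr rfl fun χ _ => ?_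
    rw [hconj, pow_two]
  have h3 := Cfsg.Agent.Lib.Helper80.col_orth u 1
  rw [if_neg (by rw [isConj_one_left]; exact hu)] at h3
  have h4 : MemLocalIdeal M (∑ χ : IrrCharacter G, (χ : G → ℂ) u) := by
    have e : ∑ χ : IrrCharacter G, (χ : G → ℂ) u
        = - ∑ χ : IrrCharacter G, (((charDegree (χ : G → ℂ) - 1 : ℕ) : ℂ)) * (χ : G → ℂ) u := by
      rw [eq_neg_iff_add_eq_zero, ← Finset.sum_add_distrib, ← h3]
      refine Finset.sum_congr rfl fun χ _ => ?_
      rw [irr_one_eq, Complex.conj_natCast, Nat.cast_sub (irr_charDegree_pos χ)]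
      push_cast; ring
    rw [e]
    apply MemLocalIdeal.neg
    apply MemLocalIdeal.sum hMp
    intro χ _
    apply MemLocalIdeal.mul_right hMp _ (memLocalRing_irr hMp χ u)
    rw [memLocalIdeal_natCast_iff hM]
    have h5 := hcon χ
    rw [Nat.not_even_iff_odd] at h5
    obtain ⟨k, hk⟩ := h5
    exact ⟨k, by omega⟩
  have h5 := memLocalIdeal_sq_sum_sub hM Finset.univ (fun χ : IrrCharacter G => (χ : G → ℂ) u) hR
  rw [h2] at h5
  have h6 : MemLocalIdeal M ((∑ χ : IrrCharacter G, (χ : G → ℂ) u) ^ 2) := by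
    rw [pow_two]
    exact MemLocalIdeal.mul_right hMp h4 (MemLocalIdeal.memLocalRing h4)
  have h7 := MemLocalIdeal.sub hMp h6 h5
  simpa using h7

end Cfsg.Agent.Lib.Helper79
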